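import Cfsg.Agent.H667.AvgRed
import Cfsg.Agent.H694.Good
import Cfsg.Agent.CharactersDeep.Tifn
import Cfsg.Agent.H685.AcdNab

/-!
# The wreath step of S4867 (helper610)

`wr` : a finite group with a non-abelian simple subgroup `S` whose conjugates are equal to `S` or
commute with `S` satisfies `Concl` if all groups with a normal subgroup isomorphic to `S` have good
characters.
-/

set_option autoImplicit false
set_option linter.style.haveILetI false
set_option linter.unusedSectionVars false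

namespace Cfsg.Agent.H610.AvgWr

open Cfsg
open scoped ComplexConjugate
open Cfsg.Agent.Characters.Core
open Cfsg.Agent.H705.StrongLin (ind ind_eq ind_indFun card_hom_le real_of_ind)
open Cfsg.Agent.H694 (Fix Good RChar rchar_irr finite_hom)
open Cfsg.Agent.H612.MinNormal (cj mem_cj mem_normalizer_iff_cj)
open Cfsg.Agent.H667.Avg (Concl)

universe u

/-- Composition with a surjection preserves the indicator `1`. -/
theorem ind_comp_one {G H : Type u} [Group G] [Finite G] [Group H] [Finite H] (q : G →* H)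
    (hq : Function.Surjective q) {χ : H → ℂ} (hχ : IsIrrCharacter H χ) (h : ind χ = 1) :
    ind (χ ∘ q) = 1 := by
  classical
  haveI := Fintype.ofFinite G
  haveI := Fintype.ofFinite H
  have hψ : IsIrrCharacter G (χ ∘ q) := isIrr_comp q hq hχ
  have hR : RChar (χ ∘ q) := (rchar_irr hχ h).comp q
  rcases Cfsg.Agent.H694.ind_cases hψ with h0 | h1 | h2
  · exfalso
    obtain ⟨g, hg⟩ := (Cfsg.Agent.H694.ind_eq_zero_iff hψ).1 h0
    exact hg (Complex.conj_eq_iff_im.1 (hR.real g))
  · exact h1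
  · exfalso
    obtain ⟨n, hn⟩ := hR.even _ hψ h2
    rw [classInner_irr_self hψ] at hn
    have h3 : (1 : ℤ) = 2 * n := by exact_mod_cast hn
    omega

/-- The restriction of an induced character, seen by the characters not trivial on `K`. -/
theorem inner_ind_eq {G : Type u} [Group G] [Fintype G] (L : Subgroup G) [Fintype L]
    (K : Subgroup L) [K.Normal] {ψ ψ' : L → ℂ} (hψ : IsClassFunction L ψ)
    (hψ' : IsIrrCharacter L ψ') (hK : ∃ k ∈ K, ψ' k ≠ ψ' 1)
    (hinv : ∀ g : G, g ∉ L → ∀ x k : L, k ∈ K →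
      extendByZero L ψ (g⁻¹ * ((x * k : L) : G) * g) = extendByZero L ψ (g⁻¹ * (x : G) * g)) :
    classInner (fun t : L => indFun L ψ (t : G)) ψ' = classInner ψ ψ' := by
  classical
  haveI := Fintype.ofFinite K
  set R : L → ℂ := fun t => (Nat.card L : ℂ)⁻¹ *
    ∑ x : G, (if x ∈ L then 0 else extendByZero L ψ (x⁻¹ * (t : G) * x)) with hR
  have h1 : (fun t : L => indFun L ψ (t : G)) = ψ + R := by
    funext t
    rw [indFun_apply, Pi.add_apply, hR]
    have h2 : ∀ x : G, extendByZero L ψ (x⁻¹ * (t : G) * x) = (if x ∈ L then ψ t else 0) +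
        (if x ∈ L then 0 else extendByZero L ψ (x⁻¹ * (t : G) * x)) := by
      intro x
      split_ifs with hx
      · rw [add_zero, extendByZero_of_mem L ψ (L.mul_mem (L.mul_mem (L.inv_mem hx) t.2) hx)]
        have h3 := hψ t (⟨x, hx⟩⁻¹ : L)
        rw [← h3]
        congr 1
        apply Subtype.ext
        simp
      · rw [zero_add]
    rw [Finset.sum_congr rfl fun x _ => h2 x, Finset.sum_add_distrib, mul_add]
    congr 1
    rw [← Finset.sum_filter, Finset.sum_const, nsmul_eq_mul, ← mul_assoc]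
    have h3 : ((Finset.univ.filter fun x : G => x ∈ L).card : ℂ) = Nat.card L := by
      rw [← Fintype.card_subtype, ← Nat.card_eq_fintype_card]
    rw [h3, inv_mul_cancel₀ card_ne_zero_complex, one_mul]
  have hRk : ∀ x k : L, k ∈ K → R (x * k) = R x := by
    intro x k hk
    simp only [hR]
    congr 1
    refine Finset.sum_congr rfl fun g _ => ?_
    split_ifs with hg
    · rfl
    · exact hinv g hg x k hk
  have h4 : classInner R ψ' = 0 := by
    rw [classInner_def]
    have h5 : ∀ k : K, ∑ x : L, R x * conj (ψ' (x * k)) = ∑ x : L, R x * conj (ψ' x) := by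
      intro k
      refine Fintype.sum_equiv (Equiv.mulRight (k : L)) _ _ fun x => ?_
      rw [Equiv.coe_mulRight, hRk x k k.2]
    have h6 : ∑ k : K, ∑ x : L, R x * conj (ψ' (x * k)) = 0 := by
      rw [Finset.sum_comm]
      refine Finset.sum_eq_zero fun x _ => ?_
      rw [← Finset.mul_sum, ← map_sum, Cfsg.Agent.CharactersDeep.Tifn.sum_mul_eq_zero K hψ' hK x,
        map_zero, mul_zero]
    rw [Finset.sum_congr rfl fun k _ => h5 k, Finset.sum_const, nsmul_eq_mul] at h6
    have h7 : ((Finset.univ : Finset K).card : ℂ) ≠ 0 := by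
      rw [Finset.card_univ]
      exact_mod_cast Fintype.card_ne_zero
    rw [(mul_eq_zero.1 h6).resolve_left h7, mul_zero]
  rw [h1, classInner_add_left, h4, add_zero]

/-- A non-abelian simple subgroup lies in the kernel of every homomorphism to an abelian group. -/
theorem hom_eq_one {G : Type u} [Group G] {S : Subgroup G} (hs : IsSimpleGroup S)
    (hna : ¬ IsMulCommutative S) {A : Type*} [CommGroup A] (f : G →* A) {s : G} (h : s ∈ S) :
    f s = 1 := by
  have h1 := (f.comp S.subtype).normal_ker.eq_bot_or_eq_top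
  rcases h1 with h1 | h1
  · exfalso
    apply hna
    refine ⟨⟨fun a b => ?_⟩⟩
    apply (MonoidHom.ker_eq_bot_iff _).1 h1
    rw [map_mul, map_mul, mul_comm]
  · have h2 : (⟨s, h⟩ : S) ∈ (f.comp S.subtype).ker := by rw [h1]; trivial
    exact h2

/-- **The wreath step.** -/
theorem wr {G : Type u} [Group G] [Finite G] (S : Subgroup G) (hs : IsSimpleGroup S)
    (hna : ¬ IsMulCommutative S)
    (hS : ∀ g : G, S.map (MulAut.conj g).toMonoidHom = S ∨
      S.map (MulAut.conj g).toMonoidHom ≤ Subgroup.centralizer (S : Set G))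
    (hgood : ∀ (H : Type u) [Group H] [Fintype H] (N : Subgroup H) [N.Normal],
      Nonempty (N ≃* S) → ∃ χ, Good H N χ) : Concl G := by
  classical
  haveI := Fintype.ofFinite G
  set L : Subgroup G := Subgroup.normalizer (S : Set G) with hL
  haveI : Fintype L := Fintype.ofFinite L
  let c : L →* MulAut S := Subgroup.normalizerMonoidHom S
  have hc : ∀ (t : L) (s : S), ((c t s : S) : G) = t * s * (t : G)⁻¹ := fun t s => rfl
  let q : L →* c.range := c.rangeRestrict
  have hqs : Function.Surjective q := c.rangeRestrict_surjective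
  haveI : Finite c.range := Finite.of_surjective q hqs
  haveI : Fintype c.range := Fintype.ofFinite _
  have hSL : S ≤ L := Subgroup.le_normalizer
  have hq1 : ∀ t : L, (∀ s ∈ S, (t : G) * s * (t : G)⁻¹ = s) → q t = 1 := by
    intro t ht
    apply Subtype.ext
    ext s
    exact ht s s.2
  have hZ : ∀ s : S, (∀ x : S, s * x = x * s) → s = 1 := fun s h =>
    Cfsg.Agent.H685.Acd.eq_one_of_central hna h
  -- the image of `S`
  let j : S →* c.range := q.comp (Subgroup.inclusion hSL)
  have hjinj : Function.Injective j := by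
    rw [injective_iff_map_eq_one]
    intro a ha
    apply hZ
    intro x
    apply Subtype.ext
    have h1 := congrArg (fun b : c.range => (((b : MulAut S) x : S) : G)) ha
    have h2 : (a : G) * x * (a : G)⁻¹ = x := h1
    show (a : G) * x = x * a
    exact mul_inv_eq_iff_eq_mul.1 h2
  haveI hjn : j.range.Normal := by
    refine ⟨?_⟩
    rintro _ ⟨s, rfl⟩ b
    obtain ⟨t, rfl⟩ := hqs b
    refine ⟨⟨(t : G) * s * (t : G)⁻¹, (Subgroup.mem_normalizer_iff.1 t.2 s).1 s.2⟩, ?_⟩
    show q _ = q t * q _ * (q t)⁻¹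
    rw [← map_mul, ← map_inv, ← map_mul]
    congr 1
  obtain ⟨χ, hχ⟩ := hgood c.range j.range ⟨(MonoidHom.ofInjective hjinj).symm⟩
  have hirr : IsIrrCharacter L (χ ∘ q) := isIrr_comp q hqs hχ.irr
  have hind : ind (χ ∘ q) = 1 := ind_comp_one q hqs hχ.irr hχ.ind
  set ψ : L → ℂ := χ ∘ q with hψdef
  have hψa : ∀ t : L, ψ t = χ (q t) := fun t => rfl
  haveI hKn : (S.subgroupOf L).Normal := Subgroup.normal_in_normalizer
  have hker : ∃ k ∈ S.subgroupOf L, ψ k ≠ ψ 1 := by
    obtain ⟨_, ⟨s, rfl⟩, hn⟩ := hχ.nker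
    refine ⟨⟨s, hSL s.2⟩, s.2, ?_⟩
    rw [hψa, hψa, map_one]
    exact hn
  -- the invariance
  have hinv : ∀ g : G, g ∉ L → ∀ x k : L, k ∈ S.subgroupOf L →
      extendByZero L ψ (g⁻¹ * ((x * k : L) : G) * g) = extendByZero L ψ (g⁻¹ * (x : G) * g) := by
    intro g hg x k hk
    have hk' : (k : G) ∈ S := hk
    have hgi : g⁻¹ ∉ L := fun h => hg (by simpa using L.inv_mem h)
    have h1 : g⁻¹ * (k : G) * g ∈ Subgroup.centralizer (S : Set G) := by
      rcases hS g⁻¹ with h | h
      · exact absurd (mem_normalizer_iff_cj.2 h) hgi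
      · apply h
        refine ⟨k, hk', ?_⟩
        simp
    have h2 : ∀ s ∈ S, (g⁻¹ * (k : G) * g) * s * (g⁻¹ * (k : G) * g)⁻¹ = s := by
      intro s hs'
      rw [← Subgroup.mem_centralizer_iff.1 h1 s hs', mul_inv_cancel_right]
    have h3 : g⁻¹ * (k : G) * g ∈ L := by
      refine Subgroup.mem_normalizer_iff.2 fun s => ?_
      constructor
      · intro hs'
        rw [h2 s hs']
        exact hs'
      · intro hs'
        have h4 := h2 _ hs'
        have h5 : (g⁻¹ * (k : G) * g) * s * (g⁻¹ * (k : G) * g)⁻¹ = s := by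
          have h6 : (g⁻¹ * (k : G) * g)⁻¹ * ((g⁻¹ * (k : G) * g) *
              ((g⁻¹ * (k : G) * g) * s * (g⁻¹ * (k : G) * g)⁻¹) * (g⁻¹ * (k : G) * g)⁻¹) *
              (g⁻¹ * (k : G) * g) = (g⁻¹ * (k : G) * g)⁻¹ *
              ((g⁻¹ * (k : G) * g) * s * (g⁻¹ * (k : G) * g)⁻¹) * (g⁻¹ * (k : G) * g) := by
            rw [h4]
          have h7 : ∀ a : G, a⁻¹ * (a * (a * s * a⁻¹) * a⁻¹) * a = a * s * a⁻¹ := by
            intro a; group
          have h8 : ∀ a : G, a⁻¹ * (a * s * a⁻¹) * a = s := by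
            intro a; group
          rw [h7, h8] at h6
          exact h6
        rw [h5] at hs'
        exact hs'
    have h4 : g⁻¹ * ((x * k : L) : G) * g = (g⁻¹ * (x : G) * g) * (g⁻¹ * (k : G) * g) := by
      rw [Subgroup.coe_mul]
      group
    rw [h4]
    by_cases hx : g⁻¹ * (x : G) * g ∈ L
    · rw [extendByZero_of_mem L ψ hx, extendByZero_of_mem L ψ (L.mul_mem hx h3), hψa, hψa]
      congr 1
      have h5 : (⟨(g⁻¹ * (x : G) * g) * (g⁻¹ * (k : G) * g), L.mul_mem hx h3⟩ : L) =
        ⟨g⁻¹ * (x : G) * g, hx⟩ * ⟨g⁻¹ * (k : G) * g, h3⟩ := rfl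
      rw [h5, map_mul, hq1 ⟨g⁻¹ * (k : G) * g, h3⟩ h2, mul_one]
    · rw [extendByZero_of_notMem L ψ hx, extendByZero_of_notMem L ψ]
      intro h5
      exact hx ((Subgroup.mul_mem_cancel_right L h3).1 h5)
  have hcf : IsClassFunction L ψ := isIrr_isClassFunction hirr
  have hXc : IsCharacter G (indFun L ψ) :=
    Cfsg.Agent.OddOrderCharacters.IndRes.isCharacter_indFun L (isIrr_isCharacter hirr)
  have hself : classInner (indFun L ψ) (indFun L ψ) = 1 := by
    rw [Cfsg.Agent.OddOrderCharacters.Clifford.classInner_indFun L ψ _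
      (isCharacter_isClassFunction hXc), ← classInner_conj_symm]
    rw [inner_ind_eq L (S.subgroupOf L) hcf hirr hker hinv, classInner_irr_self hirr, map_one]
  have hX : IsIrrCharacter G (indFun L ψ) := isIrr_of_classInner_self hXc hself
  have hdeg : charDegree (indFun L ψ) = L.index * charDegree χ := by
    have h1 := Cfsg.Agent.OddOrderCharacters.IndRes.indFun_apply_one (H := L) ψ
    rw [hψa, map_one, Cfsg.Agent.Blocks.Basic.irr_one_eq_charDegree hχ.irr,
      Cfsg.Agent.Blocks.Basic.irr_one_eq_charDegree hX] at h1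
    exact_mod_cast h1
  refine ⟨indFun L ψ, hX, ind_indFun L hirr hX hind, ?_, ?_⟩
  · rw [hdeg]
    exact hχ.even.mul_left _
  -- the stabilizer
  have hkey : ∀ f : Fix (indFun L ψ), ∀ t : L, (f.1 t : ℂ) * ψ t = ψ t := by
    intro f
    set f' : L →* ℂˣ := f.1.comp L.subtype with hf'
    have hψ' : IsIrrCharacter L (fun t => (f' t : ℂ) * ψ t) :=
      Cfsg.Agent.OddOrderCharacters.InertiaAbelian.isIrr_mul_hom _ hirr
    have hker' : ∃ k ∈ S.subgroupOf L, (fun t => (f' t : ℂ) * ψ t) k ≠
        (fun t => (f' t : ℂ) * ψ t) 1 := by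
      obtain ⟨k, hk, hne⟩ := hker
      refine ⟨k, hk, ?_⟩
      have h1 : f' k = 1 := hom_eq_one hs hna f.1 hk
      show (f' k : ℂ) * ψ k ≠ (f' 1 : ℂ) * ψ 1
      rw [h1, map_one, Units.val_one, one_mul, one_mul]
      exact hne
    have h1 := inner_ind_eq L (S.subgroupOf L) hcf hψ' hker' hinv
    have h2 : indFun L (fun t => (f' t : ℂ) * ψ t) = indFun L ψ := by
      have h1 := Cfsg.Agent.OddOrderCharacters.IndRes.indFun_mul (H := L) ψ
        (χ := fun g => (f.1 g : ℂ)) (fun g h => by
          show ((f.1 (h * g * h⁻¹) : ℂˣ) : ℂ) = (f.1 g : ℂ)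
          rw [map_mul, map_mul, map_inv, mul_comm (f.1 h), mul_inv_cancel_right])
      have h2 : (fun t => (f' t : ℂ) * ψ t) =
          ψ * Cfsg.Agent.OddOrderCharacters.IndRes.res L (fun g => (f.1 g : ℂ)) := by
        funext t
        show (f.1 (t : G) : ℂ) * ψ t = ψ t * (f.1 (t : G) : ℂ)
        rw [mul_comm]
      rw [h2, h1]
      funext g
      show indFun L ψ g * (f.1 g : ℂ) = indFun L ψ g
      rw [mul_comm]
      exact f.2.2 g
    have h3 := Cfsg.Agent.OddOrderCharacters.Clifford.classInner_indFun L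
      (fun t => (f' t : ℂ) * ψ t) (indFun L ψ) (isIrr_isClassFunction hX)
    rw [h2, hself, ← classInner_conj_symm, h1] at h3
    have h4 : classInner ψ (fun t => (f' t : ℂ) * ψ t) ≠ 0 := by
      intro h0
      rw [h0, map_zero] at h3
      exact one_ne_zero h3
    have h5 : ψ = fun t => (f' t : ℂ) * ψ t := by
      by_contra hne
      exact h4 (classInner_irr_ne hirr hψ' hne)
    intro t
    exact (congrFun h5 t).symm
  have hχ1 : χ 1 ≠ 0 := isIrr_apply_one_ne_zero hχ.irr
  have hkerq : ∀ f : Fix (indFun L ψ), ∀ t : L, q t = 1 → f.1 (t : G) = 1 := by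
    intro f t ht
    have h1 := hkey f t
    rw [hψa, ht] at h1
    have h2 : (f.1 (t : G) : ℂ) * χ 1 = 1 * χ 1 := by rw [h1, one_mul]
    exact Units.ext (mul_right_cancel₀ hχ1 h2)
  have hex : ∀ f : Fix (indFun L ψ), ∃ F : Fix χ, ∀ t : L, F.1 (q t) = f.1 (t : G) := by
    intro f
    have h0 : q.ker ≤ (f.1.comp L.subtype).ker := fun t ht => hkerq f t ht
    refine ⟨⟨q.liftOfSurjective hqs ⟨f.1.comp L.subtype, h0⟩, fun x => ?_, fun x => ?_⟩, fun t => ?_⟩
    · obtain ⟨t, rfl⟩ := hqs x
      rw [MonoidHom.liftOfRightInverse_comp_apply]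
      exact f.2.1 t
    · obtain ⟨t, rfl⟩ := hqs x
      rw [MonoidHom.liftOfRightInverse_comp_apply]
      exact hkey f t
    · rw [MonoidHom.liftOfRightInverse_comp_apply]
      rfl
  choose F hF using hex
  haveI := finite_hom G
  haveI := finite_hom c.range
  haveI hfF : Finite (Fix χ) := by unfold Cfsg.Agent.H694.Fix; infer_instance
  haveI hfF' : Finite (Fix (indFun L ψ)) := by unfold Cfsg.Agent.H694.Fix; infer_instance
  have hcard : Nat.card (Fix (indFun L ψ)) ≤ Nat.card (Fix χ) * L.index := by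
    refine le_trans ?_ (Nat.mul_le_mul_left _ (card_hom_le L))
    rw [← Nat.card_prod]
    haveI : Finite {f : G →* ℂˣ // ∀ t ∈ L, f t = 1} := inferInstance
    have hr0 : ∀ y : Fix χ, ∃ f : Fix (indFun L ψ), (∃ f', F f' = y) → F f = y := by
      intro y
      by_cases h : ∃ f', F f' = y
      · exact ⟨h.choose, fun _ => h.choose_spec⟩
      · exact ⟨⟨1, by simp, by simp⟩, fun h' => absurd h' h⟩
    choose r hr1 using hr0
    have hr : ∀ f, F (r (F f)) = F f := fun f => hr1 _ ⟨f, rfl⟩
    refine Nat.card_le_card_of_injective (fun f : Fix (indFun L ψ) =>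
      (F f, (⟨f.1 * (r (F f)).1⁻¹, ?_⟩ : {f : G →* ℂˣ // ∀ t ∈ L, f t = 1}))) ?_
    · intro t ht
      have h1 := hF f ⟨t, ht⟩
      have h2 := hF (r (F f)) ⟨t, ht⟩
      rw [hr] at h2
      rw [MonoidHom.mul_apply, MonoidHom.inv_apply]
      have h3 : f.1 t = (r (F f)).1 t := h1.symm.trans h2
      rw [h3, mul_inv_cancel]
    · intro f f' hff
      have h1 : F f = F f' := congrArg Prod.fst hff
      have h2 : f.1 * (r (F f)).1⁻¹ = f'.1 * (r (F f')).1⁻¹ :=
        congrArg (fun x => (x.2 : G →* ℂˣ)) hff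
      rw [h1] at h2
      exact Subtype.ext (mul_right_cancel h2)
  have hpos : 0 < L.index := Nat.pos_of_ne_zero Subgroup.index_ne_zero_of_finite
  have h3 : Nat.card (Fix χ) + 3 ≤ charDegree χ := hχ.stab
  have h4 : L.index * (Nat.card (Fix χ) + 3) ≤ L.index * charDegree χ := Nat.mul_le_mul_left _ h3
  rw [hdeg]
  nlinarith

end Cfsg.Agent.H610.AvgWr
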